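import Mathlib
import Cfsg.Agent.Lib.Helper69.BG40.Defs
import Cfsg.Agent.Lib.Helper57.BG.S1361Core
import Cfsg.Agent.Lib.Helper47.BG.SigmaNe
import Cfsg.Agent.Lib.Helper16.BG.NilHall

/-!
# S1440 (Bender–Glauberman Theorem 15.8): assembly of the packages

`weak_of_packages` derives the conclusion of the frozen S1440 with `⁅M, M⁆ ≤ F(M)` in place of
`⁅M, M⁆ = F(M)` (the book's statement) from the packages of `Defs.lean` and the frozen statements
S1350, S1353, S1354, S1360, S1375, S1404, S1405, S1412, S1414, S1419, S1420, S1426, S1429, S1430,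
S1439 (as hypotheses).
-/

set_option autoImplicit false

namespace Cfsg.Agent.Lib.Helper69.BG40

open Cfsg

universe u

theorem exists_mem_orderOf_eq {G : Type u} [Group G] [Finite G] (H : Subgroup G) (q : ℕ)
    (hq : q.Prime) (h : q ∣ Nat.card ↥H) : ∃ y ∈ H, orderOf y = q := by
  have : Fact q.Prime := ⟨hq⟩
  obtain ⟨y, hy⟩ := exists_prime_orderOf_dvd_card' q h
  exact ⟨(y : G), y.2, by rw [Subgroup.orderOf_coe]; exact hy⟩

theorem centralizer_singleton_le_normalizer_zpowers {G : Type u} [Group G] (y : G) :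
    Subgroup.centralizer ({y} : Set G) ≤
      Subgroup.normalizer ((Subgroup.zpowers y : Subgroup G) : Set G) := by
  intro c hc
  have hcy : Commute c y := (Subgroup.mem_centralizer_iff.mp hc y (Set.mem_singleton y)).symm
  rw [Subgroup.mem_normalizer_iff]
  intro h
  have key : ∀ k : ℤ, c * y ^ k * c⁻¹ = y ^ k := fun k => by
    rw [(hcy.zpow_right k).eq, mul_inv_cancel_right]
  constructor
  · intro hh
    obtain ⟨k, rfl⟩ := Subgroup.mem_zpowers_iff.mp hh
    rw [key]; exact hh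
  · intro hh
    obtain ⟨k, hk⟩ := Subgroup.mem_zpowers_iff.mp hh
    have h2 : h = c⁻¹ * (c * h * c⁻¹) * c := by group
    have h4 : c⁻¹ * y ^ k * c = y ^ k := by
      calc c⁻¹ * y ^ k * c = c⁻¹ * (c * y ^ k * c⁻¹) * c := by rw [key k]
        _ = y ^ k := by group
    have h3 : h = y ^ k := by
      rw [h2, ← hk, h4]
    rw [h3]; exact Subgroup.zpow_mem_zpowers y k

theorem isMulCommutative_of_mulEquiv {A B : Type*} [Mul A] [Mul B] (e : A ≃* B)
    (h : IsMulCommutative A) : IsMulCommutative B := by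
  rw [isMulCommutative_iff] at h ⊢
  intro a b
  have h2 := congrArg e (h (e.symm a) (e.symm b))
  simpa using h2

/-- The conclusion of the frozen S1440 with `⁅M, M⁆ ≤ F(M)` in place of `⁅M, M⁆ = F(M)`. -/
def WeakConcl {G : Type u} [Group G] (M K U : Subgroup G) (g : G) : Prop :=
  (Cfsg.fittingOf M ⊓ (Cfsg.fittingOf M).map (MulAut.conj g).toMonoidHom ≤ Cfsg.fittingHallOf M ∧ IsCyclic ↥(Cfsg.fittingOf M ⊓ (Cfsg.fittingOf M).map (MulAut.conj g).toMonoidHom)) ∧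
      (⁅M, M⁆ ≤ Cfsg.fittingOf M ∧ Cfsg.fittingOf M = Cfsg.sigmaCore M ⊔ Cfsg.piCoreOf {q | q.Prime ∧ q ∉ Cfsg.sigma M} (Cfsg.fittingOf M)) ∧
      ((K = ⊥ ∧ IsMulCommutative (Cfsg.fittingHallOf M) ∧ Cfsg.RankLE 2 (Cfsg.fittingHallOf M) ∧ ¬ Cfsg.RankLE 1 (Cfsg.fittingHallOf M)) ∨
       (∃ p : ℕ, p.Prime ∧ Nat.card ↥(Cfsg.fittingOf M ⊓ (Cfsg.fittingOf M).map (MulAut.conj g).toMonoidHom) = p ∧ p ∈ Cfsg.sigma M ∧ p ∉ Cfsg.beta M ∧
          ¬ IsMulCommutative (Cfsg.pCore p ↥(Cfsg.fittingHallOf M)) ∧ IsCyclic (Cfsg.pPrimeCore p ↥(Cfsg.fittingHallOf M)) ∧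
          ∀ q : ℕ, q.Prime → q ∣ Nat.card (Cfsg.fittingHallOf M) → Monoid.exponent (↥M ⧸ Cfsg.fittingHall ↥M) ∣ q - 1) ∨
       (∃ p : ℕ, p.Prime ∧ Nat.card ↥(Cfsg.fittingOf M ⊓ (Cfsg.fittingOf M).map (MulAut.conj g).toMonoidHom) = p ∧ p ∈ Cfsg.sigma M ∧ p ∉ Cfsg.beta M ∧
          IsCyclic (Cfsg.pPrimeCore p ↥(Cfsg.fittingHallOf M)) ∧ Nat.card (Cfsg.pCore p ↥(Cfsg.fittingHallOf M)) = p ^ 3 ∧
          ¬ IsMulCommutative (Cfsg.pCore p ↥(Cfsg.fittingHallOf M)) ∧ K ≠ ⊥ ∧ U = ⊥ ∧ (Cfsg.fittingHallOf M).relIndex M ∣ p + 1))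

set_option maxHeartbeats 1600000 in
theorem weak_of_packages
    (hA : PKA.{u}) (hB : PKB.{u}) (hB2 : PKB2.{u}) (hC : PKC.{u}) (hD : PKD.{u})
    (hdec : PKdec.{u}) (hdecU : PKdecU.{u}) (hT : PKT.{u}) (hea2 : PKea2.{u}) (hG3 : PKG3.{u})
    (hG4 : PKG4.{u}) (hG5c : PKG5c.{u}) (hI0 : PKI0.{u}) (hI2c2 : PKI2c2.{u})
    (hE : PKE.{u}) (hEK : PKEK.{u}) (hF : PKF.{u}) (hG1 : PKG1.{u}) (hG2 : PKG2.{u})
    (hG5b : PKG5b.{u}) (hH : PKH.{u}) (hI1 : PKI1.{u}) (hI2a : PKI2a.{u}) (hI2c1 : PKI2c1.{u})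
    {G : Type u} [Group G] [Finite G] (hG : Cfsg.IsMinSimpleOddOrder G)
    (h1350 : type_of% (@Cfsg.CfsgFrozen.S1350 G _ _ hG))
    (h1353 : type_of% (@Cfsg.CfsgFrozen.S1353 G _ _ hG))
    (h1354 : type_of% (@Cfsg.CfsgFrozen.S1354 G _ _ hG))
    (h1360 : type_of% (@Cfsg.CfsgFrozen.S1360 G _ _ hG))
    (h1375 : type_of% (@Cfsg.CfsgFrozen.S1375 G _ _ hG))
    (h1404 : type_of% (@Cfsg.CfsgFrozen.S1404 G _ _ hG))
    (h1405 : type_of% (@Cfsg.CfsgFrozen.S1405 G _ _ hG))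
    (h1412 : type_of% (@Cfsg.CfsgFrozen.S1412 G _ _ hG))
    (h1414 : type_of% (@Cfsg.CfsgFrozen.S1414 G _ _ hG))
    (h1419 : type_of% (@Cfsg.CfsgFrozen.S1419 G _ _ hG))
    (h1420 : type_of% (@Cfsg.CfsgFrozen.S1420 G _ _ hG))
    (h1426 : type_of% (@Cfsg.CfsgFrozen.S1426 G _ _ hG))
    (h1429 : type_of% (@Cfsg.CfsgFrozen.S1429 G _ _ hG))
    (h1430 : type_of% (@Cfsg.CfsgFrozen.S1430 G _ _ hG))
    (h1439 : type_of% (@Cfsg.CfsgFrozen.S1439 G _ _ hG))
    (M : Subgroup G) (hM : IsCoatom M) (K U : Subgroup G)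
    (hKU : Cfsg.IsSigmaDecomposition M K U) (g : G) (hg : g ∉ M) (hX : Xof M g ≠ ⊥) :
    WeakConcl M K U g := by
  classical
  obtain ⟨hXσ, hXcyc, hXpr, hXder, hXnc⟩ := hA hG h1350 h1404 h1426 h1439 M hM K U hKU g hg hX
  -- a prime `p` and `x ∈ X` of order `p`
  have hXcard1 : Nat.card ↥(Xof M g) ≠ 1 := fun h => hX (Subgroup.eq_bot_of_card_eq _ h)
  obtain ⟨p, hp, hpX⟩ := Nat.exists_prime_and_dvd hXcard1
  have : Fact p.Prime := ⟨hp⟩
  obtain ⟨x, hx, hxo⟩ := exists_mem_orderOf_eq (Xof M g) p hp hpX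
  have hpσ : p ∈ sigma M := (hXpr p hp hpX).1
  have hpβ : p ∉ beta M := (hXpr p hp hpX).2
  have hxσ : x ∈ sigmaCore M := hXσ hx
  have hxF : x ∈ fittingOf M := hx.1
  have hnc : ¬ Subgroup.centralizer ({x} : Set G) ≤ M := hXnc x hx (hxo ▸ hp)
  obtain ⟨N, hN, hNc, hL⟩ := hB hG h1350 h1375 h1405 h1420 M hM p hp hpσ x hxσ hxF hxo hnc
  obtain ⟨hnil, hHσ⟩ := hC hG h1350 h1414 M hM p hpβ x (M ⊓ N) hL
  obtain ⟨hMF, hFY⟩ := hD hG h1439 M hM p x (M ⊓ N) hL hnil
  have hx1 : x ≠ 1 := by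
    intro h
    rw [h, orderOf_one] at hxo
    exact hp.one_lt.ne hxo
  have hσ1 : sigmaCore M ≠ ⊥ := fun h => hx1 (Subgroup.mem_bot.mp (h ▸ hxσ))
  refine ⟨⟨hHσ ▸ hXσ, hXcyc⟩, ⟨hMF, hFY⟩, ?_⟩
  rw [hHσ]
  -- the decomposition `M_σ = P × Q`
  have hσM : sigmaCore M ≤ M := Cfsg.Agent.Lib.Helper67.BG.sigmaCore_le M
  obtain ⟨P, Q, hd, hPn, hQn⟩ :=
    hdec M (sigmaCore M) (Cfsg.Agent.Lib.Helper67.BG.sigmaCore_normalizer M) hnil p
  obtain ⟨hPQ, hprod, hpP, hpQ, hder, hcommH⟩ := hdecU p (sigmaCore M) P Q hd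
  obtain ⟨hTP, hTQ⟩ := hT p (sigmaCore M) P Q hd
  have hxP : x ∈ P := hpP x hxσ ⟨1, by rw [pow_one, ← hxo]; exact pow_orderOf_eq_one x⟩
  by_cases hab : IsMulCommutative ↥(sigmaCore M)
  · -- Case I: `M_σ` abelian
    left
    obtain ⟨hr2, hr1⟩ := hE hG M hM p x (M ⊓ N) hL hab
    refine ⟨?_, hab, hr2, hr1⟩
    by_contra hK
    exact hEK hG h1350 h1354 h1426 M hM K U hKU
      (hF hG h1350 h1353 h1429 M hM K U hKU hK hnil hσ1 hMF hFY) hab
  · -- Case II: `M_σ` non-abelian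
    right
    have hCD : ∀ b ∈ M, x * b = b * x → b ∈ M ⊓ N := fun b hbM hb =>
      hL.hCD ⟨hbM, Subgroup.mem_centralizer_iff.mpr (fun h hh => by
        rw [Set.mem_singleton_iff.mp hh]; exact hb)⟩
    have hxD : x ∈ M ⊓ N := hCD x (hσM hxσ) rfl
    have hQD : Q ≤ M ⊓ N := fun b hb => hCD b (hσM (hd.hQ hb)) (hd.hcomm x hxP b hb)
    have hQab : IsMulCommutative ↥Q :=
      hL.hab Q hQD (Cfsg.Agent.Lib.Helper16.BG.isNilpotent_of_le' hnil hd.hQ)
    have hPna : ¬ IsMulCommutative ↥P := fun h => hab (hcommH h hQab)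
    obtain ⟨-, hxnc, z, hzP, hzo, hzder, hzc, hxz, hzn⟩ :=
      hG1 hG M hM p x (M ⊓ N) hL P Q hd hPn hPna
    obtain ⟨S, rfl⟩ := hG2 hG h1350 M hM p hpσ P Q hd
    have hSna : ∀ S' : Sylow p G, ¬ IsMulCommutative ↥(S' : Subgroup G) := by
      intro S' hS'
      obtain ⟨c, rfl⟩ := MulAction.exists_smul_eq G S' S
      exact hPna (isMulCommutative_of_mulEquiv (Sylow.equivSMul S' c) hS')
    have hzx : x * z = z * x := hzc x hxP
    obtain ⟨hAe, hA2⟩ := hea2 p x z hxo hzo hzx hxz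
    have hzD : z ∈ M ⊓ N := hCD z (hσM (hd.hP hzP)) hzx
    have hAD : Subgroup.zpowers x ⊔ Subgroup.zpowers z ≤ M ⊓ N :=
      sup_le (by rw [Subgroup.zpowers_le]; exact hxD) (by rw [Subgroup.zpowers_le]; exact hzD)
    have hrkD := hB2 hG h1350 h1405 h1419 M N hM hN hNc p hSna _ hAD hAe hA2
    have hQcyc : IsCyclic ↥Q := by
      refine hG3 Q hQab (fun q hq B hBQ hBe => ?_)
      by_cases hqp : q = p
      · have hB1 : B = ⊥ := by
          rw [eq_bot_iff]
          intro b hb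
          have h1 : orderOf b ∣ p := orderOf_dvd_of_pow_eq_one (hqp ▸ hBe.2 b hb)
          have h2 : orderOf b ∣ Nat.card ↥Q := Subgroup.orderOf_dvd_natCard Q (hBQ hb)
          have h3 : orderOf b = 1 :=
            Nat.Coprime.eq_one_of_dvd (Nat.Coprime.coprime_dvd_left h2 hd.hQp) h1
          exact Subgroup.mem_bot.mpr (orderOf_eq_one_iff.mp h3)
        rw [hB1, Subgroup.card_bot]; exact hq.one_lt.le
      · exact hrkD q hq hqp B (hBQ.trans hQD) hBe
    -- `X` is a `p`-group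
    have hXp : ∀ q : ℕ, q.Prime → q ∣ Nat.card ↥(Xof M g) → q = p := by
      intro q hq hqX
      by_contra hqp
      obtain ⟨y, hy, hyo⟩ := exists_mem_orderOf_eq (Xof M g) q hq hqX
      have hyσ : y ∈ sigmaCore M := hXσ hy
      have hyQ : y ∈ Q := hpQ y hyσ (by rw [hyo]; exact (Nat.coprime_primes hq hp).mpr hqp)
      have hyn := hG4 M Q hQn hQcyc y hyQ
      have hy1 : y ≠ 1 := by
        intro h
        rw [h, orderOf_one] at hyo
        exact hq.one_lt.ne hyo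
      have hyM : Subgroup.zpowers y ≤ M := by rw [Subgroup.zpowers_le]; exact hσM hyσ
      have hz1 : Subgroup.zpowers y ≠ ⊥ := by rw [Ne, Subgroup.zpowers_eq_bot]; exact hy1
      have hNy := Cfsg.Agent.Lib.Helper47.BG.normalizer_eq_of_coatom hG hM hyM hz1 hyn
      exact hXnc y hy (hyo ▸ hq)
        ((centralizer_singleton_le_normalizer_zpowers y).trans hNy.le)
    have hSM : (S : Subgroup G) ≤ M := hd.hP.trans hσM
    have hXS : Xof M g ≤ (S : Subgroup G) := by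
      intro y hy
      obtain ⟨n, hn⟩ : ∃ n, Nat.card ↥(Xof M g) = p ^ n :=
        ⟨_, Nat.eq_prime_pow_of_unique_prime_dvd (Nat.card_pos.ne')
          (fun {d} hd' hdd => hXp d hd' hdd)⟩
      refine hpP y (hXσ hy) ⟨n, ?_⟩
      rw [← hn]
      exact orderOf_dvd_iff_pow_eq_one.mp (Subgroup.orderOf_dvd_natCard _ hy)
    have hXcard : Nat.card ↥(Xof M g) = p :=
      hG5c (Xof M g) hXcyc p hXp x hx hxo (fun y hy hyp =>
        hG5b hG h1412 M hM p x (M ⊓ N) hL S hSM hxP hxnc z hzP hzo hzc hxz y (hXS hy) hyp)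
    have hpCna : ¬ IsMulCommutative ↥(pCore p ↥(sigmaCore M)) := by
      intro h
      apply hPna
      rw [← hTP]
      infer_instance
    have hpCcyc : IsCyclic ↥(pPrimeCore p ↥(sigmaCore M)) := by
      have e := Subgroup.equivMapOfInjective (pPrimeCore p ↥(sigmaCore M)) (sigmaCore M).subtype
        (Subgroup.subtype_injective _)
      have : IsCyclic ↥((pPrimeCore p ↥(sigmaCore M)).map (sigmaCore M).subtype) := by
        rw [hTQ]; exact hQcyc
      exact isCyclic_of_surjective e.symm.toMonoidHom e.symm.surjective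
    have hwit : ∀ q : ℕ, q.Prime → q ∣ Nat.card ↥(sigmaCore M) → q ≠ p →
        ∃ w ∈ Q, orderOf w = q := by
      intro q hq hqH hqp
      rw [← hd.hcard] at hqH
      rcases (Nat.Prime.dvd_mul hq).mp hqH with h | h
      · exfalso
        obtain ⟨n, hn⟩ := IsPGroup.iff_card.mp hd.hPp
        rw [hn] at h
        exact hqp ((Nat.prime_dvd_prime_iff_eq hq hp).mp (hq.dvd_of_dvd_pow h))
      · exact exists_mem_orderOf_eq Q q hq h
    by_cases hK : K = ⊥
    · left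
      refine ⟨p, hp, hXcard, hpσ, hpβ, hpCna, hpCcyc, ?_⟩
      intro q hq hqH
      by_cases hqp : q = p
      · rw [hqp]
        exact hH hG h1360 M hM K U hKU hK hHσ p hp z (hd.hP hzP) hzo hzn
      · obtain ⟨w, hwQ, hwo⟩ := hwit q hq hqH hqp
        exact hH hG h1360 M hM K U hKU hK hHσ q hq w (hd.hQ hwQ) hwo (hG4 M Q hQn hQcyc w hwQ)
    · have hU : U = ⊥ := hF hG h1350 h1353 h1429 M hM K U hKU hK hnil hσ1 hMF hFY
      have hKc : IsComplIn K (sigmaCore M) M := by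
        have := Cfsg.Agent.Lib.Helper57.BG.isComplIn_sup_of_sigmaDecomposition hKU
        rwa [hU, sup_bot_eq] at this
      have hKM : K ≤ M := hKU.hall.1
      have hKs : sigmaCore M ⊓ Subgroup.centralizer (K : Set G) ≤
          ⁅sigmaCore M, sigmaCore M⁆ := (h1426 M hM K hKc).1
      have hKs1 : sigmaCore M ⊓ Subgroup.centralizer (K : Set G) ≠ ⊥ :=
        (h1354 M hM K hKU.cyclic hKU.hall).1
      have hfix := (h1430 M hM K hKU.hall hK).1
      have hKcF : IsComplIn K (fittingHallOf M) M := by rw [hHσ]; exact hKc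
      obtain ⟨hexp, hidx⟩ := hI0 M K hKcF
      rw [hHσ] at hidx
      have hSder : ⁅(S : Subgroup G), (S : Subgroup G)⁆ ≤ (S : Subgroup G) :=
        Subgroup.commutator_le.mpr (fun a ha b hb => by
          rw [commutatorElement_def]
          exact mul_mem (mul_mem (mul_mem ha hb) (inv_mem ha)) (inv_mem hb))
      have hKsP : sigmaCore M ⊓ Subgroup.centralizer (K : Set G) ≤ (S : Subgroup G) :=
        hKs.trans ((hder hQab).trans hSder)
      have hKcop : (Nat.card ↥K).Coprime p := by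
        refine Nat.Coprime.symm ((Nat.Prime.coprime_iff_not_dvd hp).mpr (fun hpK => ?_))
        exact (hKU.hall.2.1 p hp hpK).2.2.1 hpσ
      have hwK : ∀ w ∈ Q, w ≠ 1 → w ∉ Subgroup.centralizer (K : Set G) := by
        intro w hwQ hw1 hwc
        have hw : w ∈ (S : Subgroup G) ⊓ Q := ⟨hKsP ⟨hd.hQ hwQ, hwc⟩, hwQ⟩
        rw [hPQ] at hw
        exact hw1 (Subgroup.mem_bot.mp hw)
      have key2 : (∀ k ∈ K, k ^ (p - 1) = 1) → ∀ q : ℕ, q.Prime →
          q ∣ Nat.card ↥(sigmaCore M) → Monoid.exponent (↥M ⧸ fittingHall ↥M) ∣ q - 1 := by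
        intro hkp q hq hqH
        refine hexp.trans ?_
        apply Monoid.exponent_dvd_of_forall_pow_eq_one
        intro k
        by_cases hqp : q = p
        · rw [hqp]
          exact Subtype.ext (by simpa using hkp k k.2)
        · obtain ⟨w, hwQ, hwo⟩ := hwit q hq hqH hqp
          have hw1 : w ≠ 1 := by
            intro h
            rw [h, orderOf_one] at hwo
            exact hq.one_lt.ne hwo
          have h1 := hI1 hG h1430 M hM K U hKU hK q hq w (hd.hQ hwQ) hwo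
            (hKM.trans (hG4 M Q hQn hQcyc w hwQ)) (hwK w hwQ hw1) k k.2
          exact Subtype.ext (by simpa using h1)
      by_cases hzK : z ∈ Subgroup.centralizer (K : Set G)
      swap
      · exact Or.inl ⟨p, hp, hXcard, hpσ, hpβ, hpCna, hpCcyc,
          key2 (hI1 hG h1430 M hM K U hKU hK p hp z (hd.hP hzP) hzo (hKM.trans hzn) hzK)⟩
      have hKn : K ≤ Subgroup.normalizer ((S : Subgroup G) : Set G) := hKM.trans hPn
      by_cases hr : PRankLE p 2 ↥(S : Subgroup G)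
      swap
      · have hKf : K ⊓ Subgroup.centralizer ((S : Subgroup G) : Set G) = ⊥ := by
          rw [eq_bot_iff]
          intro k hk
          rw [Subgroup.mem_bot]
          by_contra hk1
          have hxk : x ∈ sigmaCore M ⊓ Subgroup.centralizer ({k} : Set G) :=
            ⟨hxσ, Subgroup.mem_centralizer_iff.mpr (fun h hh => by
              rw [Set.mem_singleton_iff.mp hh]
              exact (Subgroup.mem_centralizer_iff.mp hk.2 x hxP).symm)⟩
          rw [hfix k hk.1 hk1] at hxk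
          have hxX : x ∈ Xof M g ⊓ ⁅sigmaCore M, sigmaCore M⁆ := ⟨hx, hKs hxk⟩
          rw [hXder] at hxX
          exact hx1 (Subgroup.mem_bot.mp hxX)
        exact Or.inl ⟨p, hp, hXcard, hpσ, hpβ, hpCna, hpCcyc,
          key2 (hI2a hG M hM p x (M ⊓ N) hL S hd.hPp hSM hxP z hzP hzo hzc hxz hr K hKM hKn
            hKcop hKf)⟩
      -- rank `≤ 2`
      have hfixS : ∀ k ∈ K, k ≠ 1 → (S : Subgroup G) ⊓ Subgroup.centralizer ({k} : Set G) =
          (S : Subgroup G) ⊓ Subgroup.centralizer (K : Set G) := by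
        intro k hk hk1
        have h := hfix k hk hk1
        apply le_antisymm
        · intro a ha
          have h2 : a ∈ sigmaCore M ⊓ Subgroup.centralizer (K : Set G) :=
            h ▸ (⟨hd.hP ha.1, ha.2⟩ : a ∈ sigmaCore M ⊓ Subgroup.centralizer ({k} : Set G))
          exact ⟨ha.1, h2.2⟩
        · intro a ha
          have h2 : a ∈ sigmaCore M ⊓ Subgroup.centralizer ({k} : Set G) :=
            h.symm ▸ (⟨hd.hP ha.1, ha.2⟩ : a ∈ sigmaCore M ⊓ Subgroup.centralizer (K : Set G))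
          exact ⟨ha.1, h2.2⟩
      have hKsS : (S : Subgroup G) ⊓ Subgroup.centralizer (K : Set G) ≤
          ⁅(S : Subgroup G), (S : Subgroup G)⁆ :=
        fun a ha => hder hQab (hKs ⟨hd.hP ha.1, ha.2⟩)
      have hKs1S : (S : Subgroup G) ⊓ Subgroup.centralizer (K : Set G) ≠ ⊥ := by
        intro h
        apply hKs1
        rw [eq_bot_iff, ← h]
        exact fun a ha => ⟨hKsP ha, ha.2⟩
      obtain ⟨hP3, hfix', hZ'⟩ := hI2c1 hG h1412 p S hr hPna K hKn hKcop hK hfixS hKsS hKs1S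
      have hodd : Odd (Nat.card G) := hG.1
      have hp2 : p ≠ 2 := by
        intro h2
        have h3 : p ∣ Nat.card G := (hpσ.2.1).trans (Subgroup.card_subgroup_dvd_card M)
        rw [h2] at h3
        exact (Nat.not_even_iff_odd.mpr hodd) (even_iff_two_dvd.mpr h3)
      have hKodd : Odd (Nat.card ↥K) := Odd.of_dvd_nat hodd (Subgroup.card_subgroup_dvd_card K)
      rcases hI2c2 p hp2 S K hP3 hPna hKn hKU.cyclic hKodd hKcop hfix' hZ' with h | h
      · exact Or.inl ⟨p, hp, hXcard, hpσ, hpβ, hpCna, hpCcyc, key2 h⟩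
      · refine Or.inr ⟨p, hp, hXcard, hpσ, hpβ, hpCcyc, ?_, hpCna, hK, hU, ?_⟩
        · rw [← hP3, ← hTP, Subgroup.card_map_of_injective (Subgroup.subtype_injective _)]
        · rw [hidx]; exact h

end Cfsg.Agent.Lib.Helper69.BG40
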